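import Cfsg.Agent.Lib.PStableQ.Invert
import Mathlib

/-! # `p`-stability passes to quotients by central `p`-subgroups, `p` odd: the abstract core -/

set_option autoImplicit false
set_option linter.style.haveILetI false

namespace Cfsg.Agent.Lib.PStableQ.Central

open Cfsg.Agent.Lib.PStableQ.Invert
open scoped commutatorElement

section alg

variable {V : Type*} [AddCommGroup V]

/-- The key computation in the endomorphism ring. -/
theorem alg_step (x y : AddMonoid.End V) (hy : y * y = 0) {w : V} (hw : x (y w) + y (x w) = -w) :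
    ((1 + y) * (1 + x) * (1 + y)) w = x w + y w := by
  have e : (1 + y) * (1 + x) * (1 + y) = 1 + x + y + y + (x * y + y * x) + y * (x * y) + y * y := by
    noncomm_ring
  have h1 : x (y w) = -w - y (x w) := by
    rw [← hw]
    abel
  have h2 : y (y (x w)) = 0 := by
    have := congrArg (fun f : AddMonoid.End V => f (x w)) hy
    exact this
  rw [e, hy]
  show w + x w + y w + y w + (x (y w) + y (x w)) + y (x (y w)) + 0 = _
  rw [hw, h1, map_sub, map_neg, h2]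
  abel

theorem alg_sq (x y : AddMonoid.End V) (hx : x * x = 0) (hy : y * y = 0) {w : V} (hw : x (y w) + y (x w) = -w) :
    ((1 + y) * (1 + x) * (1 + y)) (((1 + y) * (1 + x) * (1 + y)) w) = -w := by
  have hxx : ∀ v, x (x v) = 0 := fun v => congrArg (fun f : AddMonoid.End V => f v) hx
  have hyy : ∀ v, y (y v) = 0 := fun v => congrArg (fun f : AddMonoid.End V => f v) hy
  rw [alg_step x y hy hw]
  have hw' : x (y (x w + y w)) + y (x (x w + y w)) = -(x w + y w) := by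
    have h1 := congrArg x hw
    have h2 := congrArg y hw
    rw [map_add, hxx, zero_add, map_neg] at h1
    rw [map_add, hyy, add_zero, map_neg] at h2
    simp only [map_add, hyy, hxx, map_zero, zero_add, add_zero, h1, h2]
    abel
  rw [alg_step x y hy hw', map_add, map_add, hxx, hyy, zero_add, add_zero, hw]

/-- Powers of a square-zero perturbation. -/
theorem pow_one_add (y : AddMonoid.End V) (hy : y * y = 0) (n : ℕ) : (1 + y) ^ n = 1 + n • y := by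
  induction n with
  | zero => simp
  | succ n ih =>
    rw [pow_succ, ih, add_mul, one_mul, mul_add, mul_one, smul_mul_assoc, hy, nsmul_zero, add_zero, succ_nsmul]
    abel

end alg

section group

variable {M : Type*} [Group M]

/-- Correcting a lift so that it commutes with an involution. -/
theorem comm_lift (T Y E : M) (hT : T * T = 1) (hE : E = Y⁻¹ * T * Y * T⁻¹) {q k : ℕ} (hq : E ^ q = 1)
    (hk : 2 * k = q + 1) : (Y * E ^ k) * T = T * (Y * E ^ k) := by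
  have hTi : T⁻¹ = T := inv_eq_of_mul_eq_one_left hT
  have hE' : E = Y⁻¹ * T * Y * T := by rw [hE, hTi]
  have h1 : T * E * T⁻¹ = E⁻¹ := by
    rw [hTi]
    apply eq_inv_of_mul_eq_one_left
    calc T * E * T * E = T * (Y⁻¹ * T * Y * T) * T * (Y⁻¹ * T * Y * T) := by rw [← hE']
      _ = T * Y⁻¹ * T * Y * (T * T) * Y⁻¹ * T * Y * T := by group
      _ = T * Y⁻¹ * T * Y * 1 * Y⁻¹ * T * Y * T := by rw [hT]
      _ = T * Y⁻¹ * (T * T) * Y * T := by group
      _ = T * Y⁻¹ * 1 * Y * T := by rw [hT]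
      _ = T * T := by group
      _ = 1 := hT
  have h2 : T * E ^ k * T⁻¹ = (E⁻¹) ^ k := by
    rw [← h1, conj_pow]
  have h3 : T * Y * T⁻¹ = Y * E := by
    rw [hE]
    group
  have h4 : T * (Y * E ^ k) * T⁻¹ = Y * E ^ k := by
    calc T * (Y * E ^ k) * T⁻¹ = (T * Y * T⁻¹) * (T * E ^ k * T⁻¹) := by group
      _ = Y * (E * (E⁻¹) ^ k) := by rw [h3, h2]; group
      _ = Y * E ^ k := by
        congr 1
        rw [inv_pow]
        apply mul_inv_eq_of_eq_mul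
        rw [← pow_add, ← two_mul, hk, pow_succ, hq, one_mul]
  calc (Y * E ^ k) * T = (T * (Y * E ^ k) * T⁻¹) * T := by rw [h4]
    _ = T * (Y * E ^ k) := by group

end group

section core

variable {p : ℕ} [hfp : Fact p.Prime] {X L A : Type*} [Group X] [Finite X] [Group L] [Finite L] [CommGroup A]

/-- Quadratic action modulo `Zc`. -/
def QuadM (Ψ : L →* MulAut X) (Zc B : Subgroup X) (g : L) : Prop :=
  ∀ x ∈ B, Ψ g (Ψ g x * x⁻¹) * (Ψ g x * x⁻¹)⁻¹ ∈ Zc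

theorem pow_apply_of_fix (σ : MulAut X) {x k : X} (hk : σ k = k) (h : σ x = k * x) (n : ℕ) : (σ ^ n) x = k ^ n * x := by
  induction n with
  | zero => simp
  | succ n ih =>
    rw [pow_succ', MulAut.mul_apply, ih, map_mul, map_pow, hk, h, pow_succ, mul_assoc]

omit [Finite L] in
theorem fix_of_coprime (hX : IsPGroup p X) (σ : MulAut X) {m : ℕ} (hm : σ ^ m = 1) (hcop : m.Coprime p) {x k : X}
    (hk : σ k = k) (h : σ x * x⁻¹ = k) : σ x = x := by
  have h1 : σ x = k * x := by rw [← h]; group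
  have h2 := pow_apply_of_fix σ hk h1 m
  rw [hm, MulAut.one_apply] at h2
  have h3 : k ^ m = 1 := by
    have : k ^ m * x = 1 * x := by rw [← h2, one_mul]
    exact mul_right_cancel this
  obtain ⟨e, he⟩ := hX k
  have h4 : orderOf k ∣ m := orderOf_dvd_of_pow_eq_one h3
  have h5 : orderOf k ∣ p ^ e := orderOf_dvd_of_pow_eq_one he
  have h6 : k = 1 := orderOf_eq_one_iff.1 (Nat.eq_one_of_dvd_coprimes (Nat.Coprime.pow_right e hcop) h4 h5)
  rw [h1, h6, one_mul]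

theorem odd_invert (σ : MulAut A) {v : A} (h : σ v = v⁻¹) {m : ℕ} (hm : Odd m) : (σ ^ m) v = v⁻¹ := by
  obtain ⟨r, rfl⟩ := hm
  induction r with
  | zero => simpa using h
  | succ r ih =>
    have e : 2 * (r + 1) + 1 = 2 + (2 * r + 1) := by ring
    have hσ : σ (σ v) = v := by rw [h, map_inv, h, inv_inv]
    rw [e, pow_add, MulAut.mul_apply, ih, pow_two, MulAut.mul_apply, map_inv, map_inv, hσ]

theorem eq_one_of_inv_eq (hp : p ≠ 2) (hA : ∀ v : A, v ^ p = 1) {v : A} (h : v⁻¹ = v) : v = 1 := by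
  have h2 : v ^ 2 = 1 := by
    rw [pow_two]
    nth_rewrite 1 [← h]
    simp
  have h3 := hA v
  have h4 : orderOf v ∣ 2 := orderOf_dvd_of_pow_eq_one h2
  have h5 : orderOf v ∣ p := orderOf_dvd_of_pow_eq_one h3
  have h6 : Nat.Coprime 2 p := (Nat.coprime_primes Nat.prime_two Fact.out).2 (Ne.symm hp)
  exact orderOf_eq_one_iff.1 (Nat.eq_one_of_dvd_coprimes h6 h4 h5)

/-- The additive incarnation of an automorphism of `A`. -/
def lin : MulAut A →* AddMonoid.End (Additive A) where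
  toFun α := MonoidHom.toAdditive α.toMonoidHom
  map_one' := rfl
  map_mul' _ _ := rfl

@[simp] theorem lin_apply (α : MulAut A) (v : A) : lin α (Additive.ofMul v) = Additive.ofMul (α v) := rfl

/-- **The abstract core.** -/
theorem core_false (hp : p ≠ 2) (hX : IsPGroup p X) (hA : ∀ v : A, v ^ p = 1) (Ψ : L →* MulAut X) (Zc : Subgroup X)
    (hZ : ∀ z ∈ Zc, ∀ ℓ, Ψ ℓ z = z) (κ : X →* A) (hκ : Function.Surjective κ) (hκZ : Zc ≤ κ.ker)
    (ρ : L →* MulAut A) (hρ : ∀ ℓ x, κ (Ψ ℓ x) = ρ ℓ (κ x)) (a b : L)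
    (ha : QuadM Ψ Zc ⊤ a) (hb : QuadM Ψ Zc ⊤ b) (f₁ f₂ : A) (n : ℕ) (hn : ¬ p ∣ n) (hf₁ : f₁ ≠ 1)
    (haf₁ : ρ a f₁ = f₁ * f₂) (haf₂ : ρ a f₂ = f₂) (hbf₁ : ρ b f₁ = f₁) (hbf₂ : ρ b f₂ = f₁ ^ n * f₂)
    (hIH : ∀ B : Subgroup X, Zc ≤ B → B ≠ ⊤ → ∀ g g' : L, (∀ x ∈ B, Ψ g x ∈ B) → (∀ x ∈ B, Ψ g' x ∈ B) →
      QuadM Ψ Zc B g → QuadM Ψ Zc B g' → ∀ ℓ ∈ Subgroup.closure ({g, g'} : Set L), ∃ k : ℕ, ∀ x ∈ B, Ψ (ℓ ^ p ^ k) x * x⁻¹ ∈ Zc)
    (hst : ∀ Ξ : Subgroup X, ∀ g g' : L, (∀ x ∈ Ξ, Ψ g x ∈ Ξ) → (∀ x ∈ Ξ, Ψ g' x ∈ Ξ) →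
      (∀ x ∈ Ξ, Ψ g (Ψ g x * x⁻¹) = Ψ g x * x⁻¹) → (∀ x ∈ Ξ, Ψ g' (Ψ g' x * x⁻¹) = Ψ g' x * x⁻¹) →
      ∀ ℓ ∈ Subgroup.closure ({g, g'} : Set L), ∃ k : ℕ, ∀ x ∈ Ξ, Ψ (ℓ ^ p ^ k) x = x) : False := by
  classical
  have hpodd : Odd p := (Fact.out : p.Prime).odd_of_ne_two hp
  -- quadraticity on `A`
  have hqA : ∀ g : L, QuadM Ψ Zc ⊤ g → ∀ v : A, ρ g (ρ g v * v⁻¹) = ρ g v * v⁻¹ := by
    intro g hg v
    obtain ⟨x, rfl⟩ := hκ v
    have h1 := hκZ (hg x (Subgroup.mem_top x))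
    rw [MonoidHom.mem_ker, map_mul, map_inv, hρ, map_mul, map_inv, hρ] at h1
    exact mul_inv_eq_one.1 h1
  set x₀ : AddMonoid.End (Additive A) := lin (ρ a) - 1 with hx₀
  set y₀ : AddMonoid.End (Additive A) := lin (ρ b) - 1 with hy₀
  have hsq : ∀ g : L, QuadM Ψ Zc ⊤ g → (lin (ρ g) - 1) * (lin (ρ g) - 1) = 0 := by
    intro g hg
    ext v
    have h1 := hqA g hg (Additive.toMul v)
    have h2 : (lin (ρ g) - 1 : AddMonoid.End (Additive A)) v = Additive.ofMul (ρ g (Additive.toMul v) * (Additive.toMul v)⁻¹) := by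
      show Additive.ofMul (ρ g (Additive.toMul v)) - v = _
      rw [ofMul_mul, ofMul_inv, ofMul_toMul, sub_eq_add_neg]
    show (lin (ρ g) - 1 : AddMonoid.End (Additive A)) ((lin (ρ g) - 1 : AddMonoid.End (Additive A)) v) = 0
    rw [h2]
    show Additive.ofMul (ρ g (ρ g (Additive.toMul v) * (Additive.toMul v)⁻¹)) - Additive.ofMul (ρ g (Additive.toMul v) * (Additive.toMul v)⁻¹) = 0
    rw [h1, sub_self]
  have hxx : x₀ * x₀ = 0 := hsq a ha
  have hyy : y₀ * y₀ = 0 := hsq b hb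
  have hpV : ∀ w : Additive A, p • w = 0 := fun w => by
    apply Additive.toMul.injective
    rw [toMul_nsmul, hA]
    rfl
  -- the scalar
  obtain ⟨j, hj⟩ : ∃ j : ℕ, p ∣ j * n + 1 := by
    have hn0 : (n : ZMod p) ≠ 0 := fun h => hn ((ZMod.natCast_eq_zero_iff n p).1 h)
    refine ⟨(-(n : ZMod p)⁻¹).val, (ZMod.natCast_eq_zero_iff _ p).1 ?_⟩
    push_cast
    rw [ZMod.natCast_val, ZMod.cast_id', id, neg_mul, inv_mul_cancel₀ hn0]
    ring
  set s : L := b ^ j * a * b ^ j with hs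
  have hlinb : lin (ρ (b ^ j)) = 1 + j • y₀ := by
    rw [map_pow, map_pow]
    have : lin (ρ b) = 1 + y₀ := by rw [hy₀]; abel
    rw [this, pow_one_add y₀ hyy]
  have hlina : lin (ρ a) = 1 + x₀ := by rw [hx₀]; abel
  have hlins : lin (ρ s) = (1 + j • y₀) * (1 + x₀) * (1 + j • y₀) := by
    rw [hs, map_mul, map_mul, map_mul, map_mul, hlinb, hlina]
  set Y₀ := j • y₀ with hY₀
  have hYY : Y₀ * Y₀ = 0 := by
    rw [hY₀, smul_mul_assoc, mul_smul_comm, hyy, nsmul_zero, nsmul_zero]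
  -- the eigenspace
  have hM : ∀ w : Additive A, x₀ (y₀ w) + y₀ (x₀ w) = n • w → lin (ρ (s * s)) w = -w := by
    intro w hw
    have hw' : x₀ (Y₀ w) + Y₀ (x₀ w) = -w := by
      have e1 : x₀ (Y₀ w) + Y₀ (x₀ w) = j • (x₀ (y₀ w) + y₀ (x₀ w)) := by
        rw [hY₀, smul_add]
        show x₀ (j • y₀ w) + j • y₀ (x₀ w) = _
        rw [map_nsmul]
      rw [e1, hw]
      obtain ⟨r, hr⟩ := hj
      have e3 : (j * n + 1) • w = 0 := by rw [hr, mul_nsmul', hpV]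
      rw [add_nsmul, one_nsmul, mul_nsmul'] at e3
      exact eq_neg_of_add_eq_zero_left e3
    rw [map_mul, map_mul, hlins]
    exact alg_sq x₀ Y₀ hxx hYY hw'
  -- the operator `c`
  set c : AddMonoid.End (Additive A) := x₀ * y₀ + y₀ * x₀ with hc
  have hcx : c * x₀ = x₀ * c := by
    rw [hc, add_mul, mul_add, mul_assoc y₀, hxx, mul_zero, add_zero, ← mul_assoc x₀ x₀, hxx, zero_mul, zero_add, mul_assoc]
  have hcy : c * y₀ = y₀ * c := by
    rw [hc, add_mul, mul_add, mul_assoc x₀, hyy, mul_zero, zero_add, ← mul_assoc y₀ y₀, hyy, zero_mul, add_zero, mul_assoc]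
  have hca : c * lin (ρ a) = lin (ρ a) * c := by
    rw [hlina]
    calc c * (1 + x₀) = c + c * x₀ := by rw [mul_add, mul_one]
      _ = c + x₀ * c := by rw [hcx]
      _ = (1 + x₀) * c := by rw [add_mul, one_mul]
  have hcb : c * lin (ρ b) = lin (ρ b) * c := by
    have : lin (ρ b) = 1 + y₀ := by rw [hy₀]; abel
    rw [this]
    calc c * (1 + y₀) = c + c * y₀ := by rw [mul_add, mul_one]
      _ = c + y₀ * c := by rw [hcy]
      _ = (1 + y₀) * c := by rw [add_mul, one_mul]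
  let X₂ : Subgroup X :=
    { carrier := {x | c (Additive.ofMul (κ x)) = n • Additive.ofMul (κ x)}
      mul_mem' := by
        intro x y hx hy
        show c (Additive.ofMul (κ (x * y))) = n • Additive.ofMul (κ (x * y))
        rw [map_mul, ofMul_mul, map_add, smul_add]
        exact congrArg₂ (· + ·) hx hy
      one_mem' := by
        show c (Additive.ofMul (κ 1)) = n • Additive.ofMul (κ 1)
        rw [map_one, ofMul_one, map_zero, smul_zero]
      inv_mem' := by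
        intro x hx
        show c (Additive.ofMul (κ x⁻¹)) = n • Additive.ofMul (κ x⁻¹)
        rw [map_inv, ofMul_inv, map_neg, smul_neg]
        exact congrArg Neg.neg hx }
  have hX₂ : ∀ x, x ∈ X₂ ↔ c (Additive.ofMul (κ x)) = n • Additive.ofMul (κ x) := fun x => Iff.rfl
  have hZX₂ : Zc ≤ X₂ := by
    intro z hz
    rw [hX₂, MonoidHom.mem_ker.1 (hκZ hz), ofMul_one, map_zero, smul_zero]
  have hpres₂ : ∀ g : L, c * lin (ρ g) = lin (ρ g) * c → ∀ x ∈ X₂, Ψ g x ∈ X₂ := by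
    intro g hg x hx
    rw [hX₂] at hx ⊢
    rw [hρ]
    have h1 : Additive.ofMul (ρ g (κ x)) = lin (ρ g) (Additive.ofMul (κ x)) := rfl
    rw [h1]
    have h2 := congrArg (fun f : AddMonoid.End (Additive A) => f (Additive.ofMul (κ x))) hg
    have h3 : c (lin (ρ g) (Additive.ofMul (κ x))) = lin (ρ g) (c (Additive.ofMul (κ x))) := h2
    rw [h3, hx, map_nsmul]
  have hx₀f₁ : x₀ (Additive.ofMul f₁) = Additive.ofMul f₂ := by
    show Additive.ofMul (ρ a f₁) - Additive.ofMul f₁ = _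
    rw [haf₁, ofMul_mul]
    abel
  have hy₀f₁ : y₀ (Additive.ofMul f₁) = 0 := by
    show Additive.ofMul (ρ b f₁) - Additive.ofMul f₁ = _
    rw [hbf₁, sub_self]
  have hy₀f₂ : y₀ (Additive.ofMul f₂) = n • Additive.ofMul f₁ := by
    show Additive.ofMul (ρ b f₂) - Additive.ofMul f₂ = _
    rw [hbf₂, ofMul_mul, ofMul_pow]
    abel
  have hcf₁ : c (Additive.ofMul f₁) = n • Additive.ofMul f₁ := by
    show x₀ (y₀ (Additive.ofMul f₁)) + y₀ (x₀ (Additive.ofMul f₁)) = _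
    rw [hy₀f₁, map_zero, zero_add, hx₀f₁, hy₀f₂]
  have hsmem : s * s ∈ Subgroup.closure ({a, b} : Set L) := by
    have haL : a ∈ Subgroup.closure ({a, b} : Set L) := Subgroup.subset_closure (by simp)
    have hbL : b ∈ Subgroup.closure ({a, b} : Set L) := Subgroup.subset_closure (by simp)
    have hsL : s ∈ Subgroup.closure ({a, b} : Set L) :=
      mul_mem (mul_mem (pow_mem hbL _) haL) (pow_mem hbL _)
    exact mul_mem hsL hsL
  have hinvM : ∀ w : A, c (Additive.ofMul w) = n • Additive.ofMul w → ρ (s * s) w = w⁻¹ := by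
    intro w hw
    have h1 := hM (Additive.ofMul w) hw
    have h2 : Additive.ofMul (ρ (s * s) w) = Additive.ofMul w⁻¹ := by
      rw [ofMul_inv, ← h1]
      rfl
    exact Additive.ofMul.injective h2
  -- contradiction from `ρ (ℓ ^ p ^ k)` fixing `f₁` with `ρ ℓ` inverting it
  have hoddcon : ∀ (ℓ : L) (k : ℕ), ρ ℓ f₁ = f₁⁻¹ → ρ (ℓ ^ p ^ k) f₁ = f₁ → False := by
    intro ℓ k h1 h2
    rw [map_pow, odd_invert (ρ ℓ) h1 (hpodd.pow)] at h2
    exact hf₁ (eq_one_of_inv_eq hp hA h2)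
  have hX₂top : X₂ = ⊤ := by
    by_contra hne
    obtain ⟨k, hk⟩ := hIH X₂ hZX₂ hne a b (hpres₂ a hca) (hpres₂ b hcb) (fun x _ => ha x (Subgroup.mem_top x))
      (fun x _ => hb x (Subgroup.mem_top x)) _ hsmem
    obtain ⟨x₁, hx₁⟩ := hκ f₁
    have hx₁M : x₁ ∈ X₂ := by
      rw [hX₂, hx₁]
      exact hcf₁
    have h1 := hκZ (hk x₁ hx₁M)
    rw [MonoidHom.mem_ker, map_mul, map_inv, hρ, hx₁] at h1
    exact hoddcon _ k (hinvM f₁ hcf₁) (mul_inv_eq_one.1 h1)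
  have hinv : ∀ v : A, ρ (s * s) v = v⁻¹ := by
    intro v
    obtain ⟨x, rfl⟩ := hκ v
    apply hinvM
    have : x ∈ X₂ := by rw [hX₂top]; trivial
    exact this
  -- the Frattini-like kernel
  have hΦne : κ.ker ≠ ⊤ := by
    intro h
    obtain ⟨x₁, hx₁⟩ := hκ f₁
    have : x₁ ∈ κ.ker := by rw [h]; trivial
    rw [MonoidHom.mem_ker, hx₁] at this
    exact hf₁ this
  have hpresK : ∀ g : L, ∀ x ∈ κ.ker, Ψ g x ∈ κ.ker := by
    intro g x hx
    rw [MonoidHom.mem_ker] at hx ⊢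
    rw [hρ, hx, map_one]
  have hIHΦ := hIH κ.ker hκZ hΦne a b (hpresK a) (hpresK b) (fun x _ => ha x (Subgroup.mem_top x))
      (fun x _ => hb x (Subgroup.mem_top x))
  set L₀ := Subgroup.closure ({a, b} : Set L) with hL₀
  have hfixΦ : ∀ ℓ ∈ L₀, (orderOf ℓ).Coprime p → ∀ x ∈ κ.ker, Ψ ℓ x = x := by
    intro ℓ hℓ hco x hx
    obtain ⟨k, hk⟩ := hIHΦ ℓ hℓ
    have hc' : (p ^ k).Coprime (orderOf ℓ) := Nat.Coprime.pow_left k hco.symm
    obtain ⟨m, hm⟩ := exists_pow_eq_self_of_coprime hc'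
    set z := Ψ (ℓ ^ p ^ k) x * x⁻¹ with hz
    have hzZ : z ∈ Zc := hk x hx
    have h1 : Ψ (ℓ ^ p ^ k) x = z * x := by rw [hz]; group
    have h2 := pow_apply_of_fix (Ψ (ℓ ^ p ^ k)) (hZ z hzZ _) h1 m
    rw [← map_pow, hm] at h2
    refine fix_of_coprime hX (Ψ ℓ) (m := orderOf ℓ) (by rw [← map_pow, pow_orderOf_eq_one, map_one]) hco
      (k := z ^ m) (by rw [map_pow, hZ z hzZ]) (by rw [h2]; group)
  have hfix1 : ∀ ℓ ∈ L₀, (orderOf ℓ).Coprime p → (∀ v, ρ ℓ v = v) → ∀ x, Ψ ℓ x = x := by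
    intro ℓ hℓ hco hv x
    refine fix_of_coprime hX (Ψ ℓ) (m := orderOf ℓ) (by rw [← map_pow, pow_orderOf_eq_one, map_one]) hco
      (k := Ψ ℓ x * x⁻¹) ?_ rfl
    refine hfixΦ ℓ hℓ hco _ ?_
    rw [MonoidHom.mem_ker, map_mul, map_inv, hρ, hv, mul_inv_cancel]
  -- the involution
  obtain ⟨r, o, ho, hoe⟩ := Nat.exists_eq_two_pow_mul_odd (orderOf_pos (s * s)).ne'
  set t : L := (s * s) ^ o with ht
  have htL : t ∈ L₀ := pow_mem hsmem o
  have h2p : Nat.Coprime 2 p := (Nat.coprime_primes Nat.prime_two Fact.out).2 (Ne.symm hp)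
  have htord : t ^ 2 ^ r = 1 := by
    rw [ht, ← pow_mul, mul_comm, ← hoe, pow_orderOf_eq_one]
  have htco : (orderOf t).Coprime p :=
    Nat.Coprime.coprime_dvd_left (orderOf_dvd_of_pow_eq_one htord) (Nat.Coprime.pow_left r h2p)
  have hρt : ∀ v, ρ t v = v⁻¹ := by
    intro v
    rw [ht, map_pow]
    exact odd_invert _ (hinv v) ho
  have httco : (orderOf (t * t)).Coprime p := by
    refine Nat.Coprime.coprime_dvd_left (orderOf_dvd_of_pow_eq_one (n := 2 ^ r) ?_) (Nat.Coprime.pow_left r h2p)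
    rw [(Commute.refl t).mul_pow, htord, one_mul]
  obtain ⟨T, hT⟩ : ∃ T, T = Ψ t := ⟨_, rfl⟩
  have hκT : ∀ x, κ (T x) = (κ x)⁻¹ := fun x => by rw [hT, hρ, hρt]
  have hTf : ∀ f ∈ κ.ker, T f = f := fun f hf => by rw [hT]; exact hfixΦ t htL htco f hf
  have hT2 : ∀ x, T (T x) = x := by
    intro x
    have h1 := hfix1 (t * t) (mul_mem htL htL) httco (fun v => by
      rw [map_mul, MulAut.mul_apply, hρt, hρt, inv_inv]) x
    rw [map_mul, MulAut.mul_apply, ← hT] at h1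
    exact h1
  have hTT : T * T = 1 := by
    ext x
    exact hT2 x
  -- lifts commuting with `T`
  have hlift : ∀ y ∈ L₀, ∃ y₁ ∈ L₀, ρ y₁ = ρ y ∧ ∀ x, Ψ y₁ (T x) = T (Ψ y₁ x) := by
    intro y hy
    set e : L := y⁻¹ * t * y * t⁻¹ with he
    have heL : e ∈ L₀ := mul_mem (mul_mem (mul_mem (inv_mem hy) htL) hy) (inv_mem htL)
    have hρe : ρ e = 1 := by
      ext v
      rw [he, map_mul, map_mul, map_mul, map_inv, map_inv]
      simp only [MulAut.mul_apply, MulAut.one_apply]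
      have h1 : (ρ t)⁻¹ v = v⁻¹ := by
        have h0 : ρ t v⁻¹ = v := by rw [hρt, inv_inv]
        calc (ρ t)⁻¹ v = (ρ t)⁻¹ (ρ t v⁻¹) := by rw [h0]
          _ = v⁻¹ := by simp
      have h2 : ρ t (ρ y v⁻¹) = ρ y v := by rw [hρt, map_inv, inv_inv]
      rw [h1, h2]
      simp
    obtain ⟨m, n', hn', he'⟩ := Nat.exists_eq_pow_mul_and_not_dvd (orderOf_pos e).ne' p (Fact.out : p.Prime).ne_one
    have hoe' : orderOf (e ^ p ^ m) = n' := by
      rw [orderOf_pow' _ (pow_ne_zero m (Fact.out : p.Prime).ne_zero), he']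
      have hp0 : 0 < p ^ m := pow_pos (Fact.out : p.Prime).pos m
      rw [Nat.gcd_mul_right_left, Nat.mul_div_cancel_left _ hp0]
    have hcop : (orderOf (e ^ p ^ m)).Coprime p := by
      rw [hoe']
      exact ((Nat.Prime.coprime_iff_not_dvd Fact.out).mpr hn').symm
    have hE1 : Ψ e ^ p ^ m = 1 := by
      ext x
      have := hfix1 (e ^ p ^ m) (pow_mem heL _) hcop (fun v => by rw [map_pow, hρe, one_pow]; rfl) x
      rw [map_pow] at this
      exact this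
    obtain ⟨k, hk⟩ : ∃ k, 2 * k = p ^ m + 1 := by
      obtain ⟨c', hc'⟩ := (hpodd.pow : Odd (p ^ m))
      exact ⟨c' + 1, by omega⟩
    refine ⟨y * e ^ k, mul_mem hy (pow_mem heL _), ?_, ?_⟩
    · rw [map_mul, map_pow, hρe, one_pow, mul_one]
    · intro x
      have h1 := comm_lift T (Ψ y) (Ψ e) hTT (by rw [he, hT]; simp only [map_mul, map_inv]) hE1 hk
      have h2 := DFunLike.congr_fun h1 x
      rw [map_mul, map_pow]
      exact h2
  have haL₀ : a ∈ L₀ := Subgroup.subset_closure (by simp)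
  have hbL₀ : b ∈ L₀ := Subgroup.subset_closure (by simp)
  obtain ⟨a₁, -, hρa₁, hTa₁⟩ := hlift a haL₀
  obtain ⟨b₁, -, hρb₁, hTb₁⟩ := hlift b hbL₀
  -- inverted elements
  obtain ⟨u, hκu, hu⟩ := exists_inverted (T := T) hp hA hκ hκT hT2 f₁
  obtain ⟨v, hκv, hv⟩ := exists_inverted (T := T) hp hA hκ hκT hT2 f₂
  have hker : ∀ x, κ x = 1 ↔ x ∈ κ.ker := fun x => MonoidHom.mem_ker.symm
  have hfixI : ∀ (y₁ : L) (z : X), (∀ x, Ψ y₁ (T x) = T (Ψ y₁ x)) → T z = z⁻¹ → ρ y₁ (κ z) = κ z → Ψ y₁ z = z := by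
    intro y₁ z h1 h2 h3
    refine inverted_unique hp hX (inferInstance : κ.ker.Normal) hTf hker ?_ h2 (by rw [hρ, h3])
    rw [← h1, h2, map_inv]
  have hAv : Ψ a₁ v = v := hfixI a₁ v hTa₁ hv (by rw [hκv, hρa₁, haf₂])
  have hBu : Ψ b₁ u = u := hfixI b₁ u hTb₁ hu (by rw [hκu, hρb₁, hbf₁])
  have F₁ := pair_facts hp hX hA (inferInstance : κ.ker.Normal) hTf hker hu hv (χ := Ψ a₁) hTa₁ hAv (n := 1)
    (by rw [hρ, hκu, hκv, hρa₁, haf₁, pow_one])
  have F₂ := pair_facts hp hX hA (inferInstance : κ.ker.Normal) hTf hker hv hu (χ := Ψ b₁) hTb₁ hBu (n := n)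
    (by rw [hρ, hκu, hκv, hρb₁, hbf₂, mul_comm])
  have hpc : ({v, u} : Set X) = {u, v} := Set.pair_comm v u
  rw [hpc] at F₂
  have hquad : ∀ (χ : MulAut X) (Ξ D : Subgroup X), (∀ x ∈ Ξ, x⁻¹ * χ x ∈ D) → (∀ x ∈ D, χ x = x) →
      (∀ x ∈ Ξ, ∀ f ∈ D, x * f * x⁻¹ ∈ D) → ∀ x ∈ Ξ, χ (χ x * x⁻¹) = χ x * x⁻¹ := by
    intro χ Ξ D h1 h2 h3 x hx
    apply h2
    have := h3 x hx _ (h1 x hx)
    have e : x * (x⁻¹ * χ x) * x⁻¹ = χ x * x⁻¹ := by group
    rwa [e] at this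
  set s₁ : L := b₁ ^ j * a₁ * b₁ ^ j with hs₁
  have hs₁m : s₁ * s₁ ∈ Subgroup.closure ({a₁, b₁} : Set L) := by
    have haL : a₁ ∈ Subgroup.closure ({a₁, b₁} : Set L) := Subgroup.subset_closure (by simp)
    have hbL : b₁ ∈ Subgroup.closure ({a₁, b₁} : Set L) := Subgroup.subset_closure (by simp)
    have hsL : s₁ ∈ Subgroup.closure ({a₁, b₁} : Set L) :=
      mul_mem (mul_mem (pow_mem hbL _) haL) (pow_mem hbL _)
    exact mul_mem hsL hsL
  obtain ⟨k, hk⟩ := hst (Subgroup.closure ({u, v} : Set X)) a₁ b₁ F₁.1 F₂.1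
    (hquad _ _ _ F₁.2.1 F₁.2.2.1 F₁.2.2.2) (hquad _ _ _ F₂.2.1 F₂.2.2.1 F₂.2.2.2) _ hs₁m
  have hu' := hk u (Subgroup.subset_closure (by simp))
  have h1 := congrArg κ hu'
  rw [hρ, hκu] at h1
  have h2 : ρ (s₁ * s₁) = ρ (s * s) := by
    rw [hs₁, hs, map_mul, map_mul, map_mul, map_pow, map_mul, map_mul, map_mul, map_pow, hρa₁, hρb₁]
  refine hoddcon (s₁ * s₁) k ?_ h1
  rw [h2]
  exact hinv f₁

end core

end Cfsg.Agent.Lib.PStableQ.Central
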