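import Cfsg.Agent.Lib.PStableQ.Central
import Cfsg.Agent.Lib.PLocal.QdMain
import Cfsg.Agent.Lib.PLocal.QuadSep2
import Cfsg.Agent.Lib.Techniques.LocalSL2
import Mathlib

/-! # `p`-stability passes to quotients by central `p`-subgroups, `p` odd -/

set_option autoImplicit false
set_option linter.style.haveILetI false

namespace Cfsg.Agent.Lib.PStableQ.Central

open Cfsg Cfsg.Agent.Lib.PLocal Cfsg.Agent.Lib.PLocal.Qd Cfsg.Agent.Lib.PLocal.QuadMat Cfsg.Agent.Lib.Core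
open scoped commutatorElement

section basics

variable {H : Type*} [Group H] [Finite H] {p : ℕ} [hfp : Fact p.Prime]

theorem comm_bot_of_quad (P : Subgroup H) (g : H)
    (hq : ∀ x ∈ P, g * (g * x * g⁻¹ * x⁻¹) * g⁻¹ = g * x * g⁻¹ * x⁻¹) :
    ⁅⁅P, Subgroup.zpowers g⁆, Subgroup.zpowers g⁆ = ⊥ := by
  rw [Subgroup.commutator_eq_bot_iff_le_centralizer, Subgroup.commutator_le]
  intro x hx y hy
  obtain ⟨n, rfl⟩ : ∃ n : ℕ, g ^ n = y := (mem_powers_iff_mem_zpowers).2 hy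
  set δ := g * x * g⁻¹ * x⁻¹ with hδ
  have hcδ : Commute g δ := by
    have h1 := hq x hx
    rw [← hδ] at h1
    show g * δ = δ * g
    calc g * δ = (g * δ * g⁻¹) * g := by group
      _ = δ * g := by rw [h1]
  have h1 : g * x * g⁻¹ = δ * x := by rw [hδ]; group
  have h2 : ∀ n : ℕ, g ^ n * x * (g ^ n)⁻¹ = δ ^ n * x := by
    intro n
    induction n with
    | zero => simp
    | succ n ih =>
      calc g ^ (n + 1) * x * (g ^ (n + 1))⁻¹ = g * (g ^ n * x * (g ^ n)⁻¹) * g⁻¹ := by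
            rw [pow_succ']
            group
        _ = g * (δ ^ n * x) * g⁻¹ := by rw [ih]
        _ = (g * δ ^ n * g⁻¹) * (g * x * g⁻¹) := by group
        _ = δ ^ n * (δ * x) := by
            rw [h1, (hcδ.pow_right n).eq]
            group
        _ = δ ^ (n + 1) * x := by rw [pow_succ]; group
  have h3 : ⁅x, g ^ n⁆ = (δ ^ n)⁻¹ := by
    rw [commutatorElement_def]
    have h4 : g ^ n * x⁻¹ * (g ^ n)⁻¹ = (δ ^ n * x)⁻¹ := by
      rw [← h2]
      group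
    calc x * g ^ n * x⁻¹ * (g ^ n)⁻¹ = x * (g ^ n * x⁻¹ * (g ^ n)⁻¹) := by group
      _ = x * (δ ^ n * x)⁻¹ := by rw [h4]
      _ = (δ ^ n)⁻¹ := by group
  rw [h3, Subgroup.mem_centralizer_iff]
  intro z hz
  obtain ⟨k, rfl⟩ := Subgroup.mem_zpowers_iff.1 hz
  exact ((hcδ.zpow_left k).pow_right n).inv_right

omit [Finite H] in
theorem quad_of_comm_bot {P : Subgroup H} {g : H} (h : ⁅⁅P, Subgroup.zpowers g⁆, Subgroup.zpowers g⁆ = ⊥) {x : H}
    (hx : x ∈ P) : g * (g * x * g⁻¹ * x⁻¹) * g⁻¹ = g * x * g⁻¹ * x⁻¹ := by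
  have h1 : ⁅x, g⁆ ∈ ⁅P, Subgroup.zpowers g⁆ :=
    Subgroup.commutator_mem_commutator hx (Subgroup.mem_zpowers g)
  have h2 : ⁅⁅x, g⁆, g⁆ ∈ ⁅⁅P, Subgroup.zpowers g⁆, Subgroup.zpowers g⁆ :=
    Subgroup.commutator_mem_commutator h1 (Subgroup.mem_zpowers g)
  rw [h, Subgroup.mem_bot, commutatorElement_eq_one_iff_commute] at h2
  have h3 : g * x * g⁻¹ * x⁻¹ = ⁅x, g⁆⁻¹ := by
    rw [commutatorElement_inv, commutatorElement_def]
  rw [h3]
  have h4 : Commute g ⁅x, g⁆⁻¹ := h2.inv_left.symm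
  calc g * ⁅x, g⁆⁻¹ * g⁻¹ = ⁅x, g⁆⁻¹ * g * g⁻¹ := by rw [h4.eq]
    _ = _ := by group

/-- Elements of the closure of two elements in the `p`-core act as `p`-elements. -/
theorem closure_pow {L : Type*} [Group L] (P : Subgroup H) (f : L →* H) (g g' : L)
    (hg : f g ∈ Subgroup.normalizer (P : Set H)) (hg' : f g' ∈ Subgroup.normalizer (P : Set H))
    (hm : (QuotientGroup.mk (s := (Subgroup.centralizer (P : Set H)).subgroupOf (Subgroup.normalizer (P : Set H)))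
        (⟨f g, hg⟩ : ↥(Subgroup.normalizer (P : Set H)))) ∈
      pCore p (↥(Subgroup.normalizer (P : Set H)) ⧸ (Subgroup.centralizer (P : Set H)).subgroupOf (Subgroup.normalizer (P : Set H))))
    (hm' : (QuotientGroup.mk (s := (Subgroup.centralizer (P : Set H)).subgroupOf (Subgroup.normalizer (P : Set H)))
        (⟨f g', hg'⟩ : ↥(Subgroup.normalizer (P : Set H)))) ∈
      pCore p (↥(Subgroup.normalizer (P : Set H)) ⧸ (Subgroup.centralizer (P : Set H)).subgroupOf (Subgroup.normalizer (P : Set H))))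
    {ℓ : L} (hℓ : ℓ ∈ Subgroup.closure ({g, g'} : Set L)) :
    ∃ k : ℕ, ∀ x ∈ P, f (ℓ ^ p ^ k) * x * (f (ℓ ^ p ^ k))⁻¹ = x := by
  set N := Subgroup.normalizer (P : Set H) with hN
  set Cn := (Subgroup.centralizer (P : Set H)).subgroupOf N with hCn
  let T : Subgroup L := (((pCore p (↥N ⧸ Cn)).comap (QuotientGroup.mk' Cn)).map N.subtype).comap f
  have hgT : g ∈ T := ⟨⟨f g, hg⟩, hm, rfl⟩
  have hg'T : g' ∈ T := ⟨⟨f g', hg'⟩, hm', rfl⟩
  have hle : Subgroup.closure ({g, g'} : Set L) ≤ T := by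
    rw [Subgroup.closure_le]
    rintro x (rfl | hx)
    · exact hgT
    · rw [Set.mem_singleton_iff.1 hx]
      exact hg'T
  obtain ⟨n, hn, hne⟩ := hle hℓ
  have hnp : IsPGroup p (pCore p (↥N ⧸ Cn)) := pCore_isPGroup p _
  obtain ⟨k, hk⟩ := hnp ⟨_, hn⟩
  refine ⟨k, fun x hx => ?_⟩
  have h1 : ((n : ↥N) : ↥N ⧸ Cn) ^ p ^ k = 1 := congrArg Subtype.val hk
  rw [← QuotientGroup.mk_pow, QuotientGroup.eq_one_iff, hCn, Subgroup.mem_subgroupOf,
    Subgroup.mem_centralizer_iff] at h1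
  have h2 := h1 x hx
  have e : f (ℓ ^ p ^ k) = ((n ^ p ^ k : ↥N) : H) := by
    rw [map_pow, ← hne]
    rfl
  rw [e, ← h2]
  group

end basics

section conj

variable {p : ℕ} {X L : Type*} [Group X] [Group L]

theorem QuadM.conj {Ψ : L →* MulAut X} {Zc : Subgroup X} (hZ : ∀ z ∈ Zc, ∀ ℓ, Ψ ℓ z = z) {a : L}
    (ha : QuadM Ψ Zc ⊤ a) (h : L) : QuadM Ψ Zc ⊤ (h * a * h⁻¹) := by
  intro x _
  obtain ⟨x', rfl⟩ : ∃ x', x = Ψ h x' :=
    ⟨Ψ h⁻¹ x, by rw [← MulAut.mul_apply, ← map_mul, mul_inv_cancel, map_one, MulAut.one_apply]⟩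
  have e0 : ∀ w, Ψ (h * a * h⁻¹) (Ψ h w) = Ψ h (Ψ a w) := by
    intro w
    have e : h * a * h⁻¹ * h = h * a := by group
    rw [← MulAut.mul_apply, ← map_mul, e, map_mul, MulAut.mul_apply]
  have e2 : Ψ (h * a * h⁻¹) (Ψ h x') * (Ψ h x')⁻¹ = Ψ h (Ψ a x' * x'⁻¹) := by
    rw [e0, map_mul, map_inv]
  rw [e2, e0]
  have h1 := ha x' (Subgroup.mem_top _)
  have e3 : ∀ u w, Ψ h u * (Ψ h w)⁻¹ = Ψ h (u * w⁻¹) := fun u w => by rw [map_mul, map_inv]
  rw [e3, hZ _ h1 h]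
  exact h1

end conj

section step

variable {G : Type*} [Group G] [Finite G] {p : ℕ} [hfp : Fact p.Prime]

/-- The normalizer. -/
abbrev LL (X : Subgroup G) : Type _ := ↥(Subgroup.normalizer (X : Set G))

/-- The conjugation action. -/
abbrev Psi (X : Subgroup G) : LL X →* MulAut X := Subgroup.normalizerMonoidHom X

theorem step_false (hp : p ≠ 2) (hst : IsNormalizerPStable p G) (Z : Subgroup G) [Z.Normal] (hZc : Z ≤ Subgroup.center G)
    (X : Subgroup G) (hXp : IsPGroup p X) (hZX : Z ≤ X)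
    (hIHg : ∀ Bb : Subgroup (G ⧸ Z), Bb < X.map (QuotientGroup.mk' Z) → ∀ (gb : G ⧸ Z) (hgb : gb ∈ Subgroup.normalizer (Bb : Set (G ⧸ Z))),
      ⁅⁅Bb, Subgroup.zpowers gb⁆, Subgroup.zpowers gb⁆ = ⊥ →
      (QuotientGroup.mk (s := (Subgroup.centralizer (Bb : Set (G ⧸ Z))).subgroupOf (Subgroup.normalizer (Bb : Set (G ⧸ Z))))
          (⟨gb, hgb⟩ : ↥(Subgroup.normalizer (Bb : Set (G ⧸ Z))))) ∈
        pCore p (↥(Subgroup.normalizer (Bb : Set (G ⧸ Z))) ⧸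
          (Subgroup.centralizer (Bb : Set (G ⧸ Z))).subgroupOf (Subgroup.normalizer (Bb : Set (G ⧸ Z)))))
    {A : Type*} [CommGroup A] (hA : ∀ v : A, v ^ p = 1) (κ : X →* A) (hκ : Function.Surjective κ)
    (hκZ : Z.subgroupOf X ≤ κ.ker) (ρ : LL X →* MulAut A)
    (hρ : ∀ ℓ x, κ (Psi X ℓ x) = ρ ℓ (κ x)) (a b : LL X)
    (ha : QuadM (Psi X) (Z.subgroupOf X) ⊤ a)
    (hb : QuadM (Psi X) (Z.subgroupOf X) ⊤ b)
    (f₁ f₂ : A) (n : ℕ) (hn : ¬ p ∣ n) (hf₁ : f₁ ≠ 1)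
    (haf₁ : ρ a f₁ = f₁ * f₂) (haf₂ : ρ a f₂ = f₂) (hbf₁ : ρ b f₁ = f₁) (hbf₂ : ρ b f₂ = f₁ ^ n * f₂) : False := by
  classical
  have hΨc : ∀ (g : LL X) (x : X), ((Psi X g x : X) : G) = g * x * (g : G)⁻¹ := fun g x => rfl
  refine core_false hp hXp hA (Psi X) (Z.subgroupOf X) ?_ κ hκ hκZ ρ hρ a b ha hb f₁ f₂ n hn hf₁ haf₁ haf₂ hbf₁ hbf₂ ?_ ?_
  · intro z hz ℓ
    apply Subtype.ext
    rw [hΨc]
    have h1 : (z : G) ∈ Subgroup.center G := hZc (Subgroup.mem_subgroupOf.1 hz)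
    rw [Subgroup.mem_center_iff.1 h1 (ℓ : G)]
    group
  · -- the induction hypothesis
    intro B hZB hB g g' hgB hg'B hqg hqg' ℓ hℓ
    set Bb : Subgroup (G ⧸ Z) := (B.map X.subtype).map (QuotientGroup.mk' Z) with hBb
    have hlt : Bb < X.map (QuotientGroup.mk' Z) := by
      refine lt_of_le_of_ne (Subgroup.map_mono (Subgroup.map_subtype_le B)) fun he => hB ?_
      rw [eq_top_iff]
      intro x _
      have h1 : (QuotientGroup.mk' Z) (x : G) ∈ X.map (QuotientGroup.mk' Z) := ⟨x, x.2, rfl⟩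
      rw [← he] at h1
      obtain ⟨_, ⟨b, hb', rfl⟩, hbe⟩ := h1
      have h2 : ((b : G))⁻¹ * x ∈ Z := by
        rw [← QuotientGroup.eq_one_iff, QuotientGroup.mk_mul, QuotientGroup.mk_inv]
        have : ((b : G) : G ⧸ Z) = ((x : G) : G ⧸ Z) := hbe
        rw [this]
        simp
      have h3 : b⁻¹ * x ∈ Z.subgroupOf X := by
        rw [Subgroup.mem_subgroupOf]
        exact h2
      have h4 := B.mul_mem hb' (hZB h3)
      rwa [mul_inv_cancel_left] at h4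
    have hpig : ∀ (h : LL X), (∀ x ∈ B, Psi X h x ∈ B) → (QuotientGroup.mk' Z) h ∈ Subgroup.normalizer (Bb : Set (G ⧸ Z)) := by
      intro h hh
      apply mem_normalizer_of_conj_le
      rintro _ ⟨_, ⟨b, hb', rfl⟩, rfl⟩
      refine ⟨_, ⟨Psi X h b, hh b hb', rfl⟩, ?_⟩
      show (QuotientGroup.mk' Z) ((Psi X h b : X) : G) = _
      rw [hΨc, map_mul, map_mul, map_inv]
      rfl
    have hpiq : ∀ (h : LL X), QuadM (Psi X) (Z.subgroupOf X) B h → ⁅⁅Bb, Subgroup.zpowers ((QuotientGroup.mk' Z) h)⁆, Subgroup.zpowers ((QuotientGroup.mk' Z) h)⁆ = ⊥ := by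
      intro h hh
      apply comm_bot_of_quad
      rintro _ ⟨_, ⟨b, hb', rfl⟩, rfl⟩
      have h1 := Subgroup.mem_subgroupOf.1 (hh b hb')
      have h2 : (QuotientGroup.mk' Z) ((Psi X h (Psi X h b * b⁻¹) * (Psi X h b * b⁻¹)⁻¹ : X) : G) = 1 := (QuotientGroup.eq_one_iff _).2 h1
      have e : ((Psi X h (Psi X h b * b⁻¹) * (Psi X h b * b⁻¹)⁻¹ : X) : G) =
          (h : G) * ((h : G) * b * (h : G)⁻¹ * (b : G)⁻¹) * (h : G)⁻¹ * ((h : G) * b * (h : G)⁻¹ * (b : G)⁻¹)⁻¹ := by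
        simp only [Subgroup.coe_mul, Subgroup.coe_inv, hΨc, map_mul, map_inv]
        group
      rw [e] at h2
      simp only [map_mul, map_inv] at h2
      exact mul_inv_eq_one.1 h2
    obtain ⟨k, hk⟩ := closure_pow (p := p) Bb ((QuotientGroup.mk' Z).comp (Subgroup.subtype _)) g g' (hpig g hgB) (hpig g' hg'B)
      (hIHg Bb hlt _ (hpig g hgB) (hpiq g hqg)) (hIHg Bb hlt _ (hpig g' hg'B) (hpiq g' hqg')) hℓ
    refine ⟨k, fun x hx => ?_⟩
    have h1 := hk ((QuotientGroup.mk' Z) (x : G)) ⟨_, ⟨x, hx, rfl⟩, rfl⟩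
    rw [Subgroup.mem_subgroupOf, Subgroup.coe_mul, Subgroup.coe_inv, hΨc, ← QuotientGroup.eq_one_iff]
    have h2 : (QuotientGroup.mk' Z) ((ℓ ^ p ^ k : LL X) : G) * (QuotientGroup.mk' Z) (x : G) * ((QuotientGroup.mk' Z) ((ℓ ^ p ^ k : LL X) : G))⁻¹ = (QuotientGroup.mk' Z) (x : G) := h1
    show (QuotientGroup.mk' Z) ((ℓ ^ p ^ k : LL X) * x * ((ℓ ^ p ^ k : LL X) : G)⁻¹ * (x : G)⁻¹) = 1
    rw [map_mul, map_mul, map_mul, map_inv, map_inv, h2, mul_inv_cancel]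
  · -- `p`-stability
    intro Ξ g g' hgΞ hg'Ξ hqg hqg' ℓ hℓ
    set Ξ' : Subgroup G := Ξ.map X.subtype with hΞ'
    have hΞp : IsPGroup p Ξ' := IsPGroup.to_le hXp (Subgroup.map_subtype_le Ξ)
    have hgN : ∀ h : LL X, (∀ x ∈ Ξ, Psi X h x ∈ Ξ) → ((Subgroup.subtype (Subgroup.normalizer (X : Set G))) h) ∈ Subgroup.normalizer (Ξ' : Set G) := by
      intro h hh
      apply mem_normalizer_of_conj_le
      rintro _ ⟨b, hb', rfl⟩
      exact ⟨Psi X h b, hh b hb', rfl⟩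
    have hgq : ∀ h : LL X, (∀ x ∈ Ξ, Psi X h (Psi X h x * x⁻¹) = Psi X h x * x⁻¹) →
        ⁅⁅Ξ', Subgroup.zpowers ((Subgroup.subtype (Subgroup.normalizer (X : Set G))) h)⁆, Subgroup.zpowers ((Subgroup.subtype (Subgroup.normalizer (X : Set G))) h)⁆ = ⊥ := by
      intro h hh
      apply comm_bot_of_quad
      rintro _ ⟨b, hb', rfl⟩
      have h1 := congrArg Subtype.val (hh b hb')
      simp only [Subgroup.coe_mul, Subgroup.coe_inv, hΨc] at h1
      exact h1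
    obtain ⟨k, hk⟩ := closure_pow (p := p) Ξ' (Subgroup.subtype (Subgroup.normalizer (X : Set G))) g g' (hgN g hgΞ) (hgN g' hg'Ξ)
      (hst Ξ' hΞp _ (hgN g hgΞ) (hgq g hqg)) (hst Ξ' hΞp _ (hgN g' hg'Ξ) (hgq g' hqg')) hℓ
    refine ⟨k, fun x hx => ?_⟩
    apply Subtype.ext
    rw [hΨc]
    exact hk x ⟨x, hx, rfl⟩

/-- `step_false` with the commutativity as a hypothesis. -/
theorem step_false' (hp : p ≠ 2) (hst : IsNormalizerPStable p G) (Z : Subgroup G) [Z.Normal] (hZc : Z ≤ Subgroup.center G)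
    (X : Subgroup G) (hXp : IsPGroup p X) (hZX : Z ≤ X)
    (hIHg : ∀ Bb : Subgroup (G ⧸ Z), Bb < X.map (QuotientGroup.mk' Z) → ∀ (gb : G ⧸ Z) (hgb : gb ∈ Subgroup.normalizer (Bb : Set (G ⧸ Z))),
      ⁅⁅Bb, Subgroup.zpowers gb⁆, Subgroup.zpowers gb⁆ = ⊥ →
      (QuotientGroup.mk (s := (Subgroup.centralizer (Bb : Set (G ⧸ Z))).subgroupOf (Subgroup.normalizer (Bb : Set (G ⧸ Z))))
          (⟨gb, hgb⟩ : ↥(Subgroup.normalizer (Bb : Set (G ⧸ Z))))) ∈
        pCore p (↥(Subgroup.normalizer (Bb : Set (G ⧸ Z))) ⧸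
          (Subgroup.centralizer (Bb : Set (G ⧸ Z))).subgroupOf (Subgroup.normalizer (Bb : Set (G ⧸ Z)))))
    {A : Type*} [Group A] (hcomm : ∀ x y : A, x * y = y * x) (hA : ∀ v : A, v ^ p = 1) (κ : X →* A)
    (hκ : Function.Surjective κ)
    (hκZ : Z.subgroupOf X ≤ κ.ker) (ρ : LL X →* MulAut A)
    (hρ : ∀ ℓ x, κ (Psi X ℓ x) = ρ ℓ (κ x)) (a b : LL X)
    (ha : QuadM (Psi X) (Z.subgroupOf X) ⊤ a)
    (hb : QuadM (Psi X) (Z.subgroupOf X) ⊤ b)
    (f₁ f₂ : A) (n : ℕ) (hn : ¬ p ∣ n) (hf₁ : f₁ ≠ 1)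
    (haf₁ : ρ a f₁ = f₁ * f₂) (haf₂ : ρ a f₂ = f₂) (hbf₁ : ρ b f₁ = f₁) (hbf₂ : ρ b f₂ = f₁ ^ n * f₂) : False := by
  letI iA : CommGroup A := { (inferInstance : Group A) with mul_comm := hcomm }
  exact step_false hp hst Z hZc X hXp hZX hIHg hA κ hκ hκZ ρ hρ a b ha hb f₁ f₂ n hn hf₁ haf₁ haf₂ hbf₁ hbf₂

end step

section abstract

variable {N : Type*} [Group N] [Finite N] {p : ℕ} [hfp : Fact p.Prime]

/-- The natural module from a quadratic element outside the core. -/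
theorem exists_natural_range {A : Type*} [Group A] (hcomm : ∀ x y : A, x * y = y * x) (hp : p ≠ 2) (hA : ∀ v : A, v ^ p = 1)
    (ρ₁ : N →* MulAut A) (g : N) (hq : ∀ v, ρ₁ g (ρ₁ g v * v⁻¹) = ρ₁ g v * v⁻¹)
    (h₀ : ρ₁.rangeRestrict g ∉ pCore p ρ₁.range) :
    ∃ (h : N) (f₁ f₂ : A) (n : ℕ), ¬ p ∣ n ∧ f₁ ≠ 1 ∧ ρ₁ g f₁ = f₁ * f₂ ∧ ρ₁ g f₂ = f₂ ∧
      ρ₁ (h * g * h⁻¹) f₁ = f₁ ∧ ρ₁ (h * g * h⁻¹) f₂ = f₁ ^ n * f₂ := by
  letI iA : CommGroup A := { (inferInstance : Group A) with mul_comm := hcomm }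
  haveI : Finite ρ₁.range := Finite.of_surjective _ ρ₁.rangeRestrict_surjective
  obtain ⟨h₁, μ, β, hμ, hβ, hβa, hβb⟩ := exists_natural_abs hp hA ρ₁.range.subtype
    (fun g' hg' => by
      apply Subtype.ext
      ext v
      exact hg' v) (ρ₁.rangeRestrict g) hq h₀
  obtain ⟨h, hh⟩ := ρ₁.rangeRestrict_surjective h₁
  have hb' : ρ₁ (h * g * h⁻¹) = ρ₁.range.subtype (h₁ * ρ₁.rangeRestrict g * h₁⁻¹) := by
    rw [← hh, ← map_inv, ← map_mul, ← map_mul]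
    rfl
  refine ⟨h, β (Multiplicative.ofAdd ![1, 0]), β (Multiplicative.ofAdd ![0, 1]), μ.val, ?_, ?_, ?_, ?_, ?_, ?_⟩
  · intro hd
    apply hμ
    have := (ZMod.natCast_eq_zero_iff μ.val p).2 hd
    rwa [ZMod.natCast_val, ZMod.cast_id', id] at this
  · intro h1
    have h2 : β (Multiplicative.ofAdd ![1, 0]) = β 1 := by rw [h1, map_one]
    have h3 := hβ h2
    have h4 : (![1, 0] : Fin 2 → ZMod p) = 0 := Multiplicative.ofAdd.injective h3
    have h5 := congrFun h4 0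
    simp at h5
  · have h1 := hβa ![1, 0]
    have e : (low (1 : ZMod p)).1.mulVec ![1, 0] = ![1, 0] + ![0, 1] := by
      ext i
      fin_cases i <;> simp [Matrix.mulVec, dotProduct, Fin.sum_univ_two]
    have e2 : β (Multiplicative.ofAdd (![1, 0] + ![0, 1])) =
        β (Multiplicative.ofAdd ![1, 0]) * β (Multiplicative.ofAdd ![0, 1]) := by
      rw [ofAdd_add, map_mul]
    rw [e, e2] at h1
    exact h1
  · have h1 := hβa ![0, 1]
    have e : (low (1 : ZMod p)).1.mulVec ![0, 1] = ![0, 1] := by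
      ext i
      fin_cases i <;> simp [Matrix.mulVec, dotProduct, Fin.sum_univ_two]
    rw [e] at h1
    exact h1
  · rw [hb']
    have h1 := hβb ![1, 0]
    have e : (up μ).1.mulVec ![1, 0] = ![1, 0] := by
      ext i
      fin_cases i <;> simp [Matrix.mulVec, dotProduct, Fin.sum_univ_two]
    rw [e] at h1
    exact h1
  · rw [hb']
    have h1 := hβb ![0, 1]
    have e : (up μ).1.mulVec ![0, 1] = μ.val • ![1, 0] + ![0, 1] := by
      ext i
      fin_cases i <;> simp [Matrix.mulVec, dotProduct, Fin.sum_univ_two]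
    have e2 : β (Multiplicative.ofAdd (μ.val • ![1, 0] + ![0, 1])) =
        β (Multiplicative.ofAdd ![1, 0]) ^ μ.val * β (Multiplicative.ofAdd ![0, 1]) := by
      rw [ofAdd_add, map_mul, ofAdd_nsmul, map_pow]
    rw [e, e2] at h1
    exact h1

/-- The Frattini section. -/
abbrev secA (W : Subgroup N) [W.Normal] : Subgroup (N ⧸ (frattini ↥W).map W.subtype) := W.map (QuotientGroup.mk' _)

instance secA_normal (W : Subgroup N) [hW : W.Normal] : (secA W).Normal :=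
  hW.map _ (QuotientGroup.mk'_surjective _)

/-- The action on the Frattini section. -/
def secρ (W : Subgroup N) [W.Normal] : N →* MulAut (secA W) :=
  (MulAut.conjNormal : (N ⧸ (frattini ↥W).map W.subtype) →* MulAut (secA W)).comp (QuotientGroup.mk' _)

/-- From the `p`-core on the Frattini section to the `p`-core on the whole. -/
theorem core_of_range (W : Subgroup N) [hW : W.Normal] (hWp : IsPGroup p W) (Cn : Subgroup N) [hCn : Cn.Normal]
    (hC : Subgroup.centralizer (W : Set N) ≤ Cn) (g : N) (h₀ : (secρ W).rangeRestrict g ∈ pCore p (secρ W).range) :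
    (g : N ⧸ Cn) ∈ pCore p (N ⧸ Cn) := by
  haveI : Finite (secρ W).range := Finite.of_surjective _ (secρ W).rangeRestrict_surjective
  set D := (pCore p (secρ W).range).comap (secρ W).rangeRestrict with hD
  have hDn : D.Normal := (pCore_normal p _).comap _
  refine le_pCore (hDn.map _ (QuotientGroup.mk'_surjective Cn)) ?_ ⟨g, h₀, rfl⟩
  rintro ⟨_, d, hd, rfl⟩
  obtain ⟨k, hk⟩ := (pCore_isPGroup p (secρ W).range) ⟨_, hd⟩
  have hk1 : (secρ W) (d ^ p ^ k) = 1 := by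
    have := congrArg Subtype.val (congrArg Subtype.val hk)
    rw [map_pow]
    exact this
  obtain ⟨c, m, hm, hym⟩ := Nat.exists_eq_pow_mul_and_not_dvd (orderOf_pos (d ^ p ^ k)).ne' p (Fact.out : p.Prime).ne_one
  set y := d ^ p ^ k with hy
  set z := y ^ (p ^ c) with hz
  have hoz : orderOf z = m := by
    rw [hz, orderOf_pow' _ (pow_ne_zero c (Fact.out : p.Prime).ne_zero), hym]
    have hp0 : 0 < p ^ c := pow_pos (Fact.out : p.Prime).pos c
    rw [Nat.gcd_mul_right_left, Nat.mul_div_cancel_left _ hp0]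
  have hcop : (orderOf z).Coprime p := by
    rw [hoz]
    exact ((Nat.Prime.coprime_iff_not_dvd Fact.out).mpr hm).symm
  have hz1 : secρ W z = 1 := by rw [hz, map_pow, hk1, one_pow]
  have hzC : z ∈ sectionKernel W ((frattini ↥W).map W.subtype) := by
    show (z : N ⧸ (frattini ↥W).map W.subtype) ∈ Subgroup.centralizer ((secA W : Subgroup _) : Set _)
    rw [Subgroup.mem_centralizer_iff]
    intro v hv
    have h1 := DFunLike.congr_fun hz1 ⟨v, hv⟩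
    have h2 := congrArg Subtype.val h1
    have h3 : (z : N ⧸ (frattini ↥W).map W.subtype) * v * (z : N ⧸ (frattini ↥W).map W.subtype)⁻¹ = v := h2
    calc v * (z : N ⧸ (frattini ↥W).map W.subtype) = ((z : N ⧸ (frattini ↥W).map W.subtype) * v * (z : N ⧸ (frattini ↥W).map W.subtype)⁻¹) * (z : N ⧸ (frattini ↥W).map W.subtype) := by rw [h3]
      _ = _ := by group
  have hzZ : z ∈ Subgroup.centralizer (W : Set N) := centralizes_of_mem_sectionKernel W hWp hzC hcop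
  refine ⟨k + c, Subtype.ext ?_⟩
  show ((d : N ⧸ Cn)) ^ p ^ (k + c) = 1
  rw [← QuotientGroup.mk_pow, QuotientGroup.eq_one_iff]
  have e : d ^ p ^ (k + c) = z := by
    rw [hz, hy, ← pow_mul, pow_add]
  rw [e]
  exact hC hzZ

end abstract

section main

variable {G : Type*} [Group G] [Finite G] {p : ℕ} [hfp : Fact p.Prime]

theorem step_main (hp : p ≠ 2) (hst : IsNormalizerPStable p G) (Z : Subgroup G) [hZn : Z.Normal] (hZc : Z ≤ Subgroup.center G)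
    (hZp : IsPGroup p Z) (Pb : Subgroup (G ⧸ Z)) (hPb : IsPGroup p Pb)
    (hIHg : ∀ Bb : Subgroup (G ⧸ Z), Bb < Pb → ∀ (gb : G ⧸ Z) (hgb : gb ∈ Subgroup.normalizer (Bb : Set (G ⧸ Z))),
      ⁅⁅Bb, Subgroup.zpowers gb⁆, Subgroup.zpowers gb⁆ = ⊥ →
      (QuotientGroup.mk (s := (Subgroup.centralizer (Bb : Set (G ⧸ Z))).subgroupOf (Subgroup.normalizer (Bb : Set (G ⧸ Z))))
          (⟨gb, hgb⟩ : ↥(Subgroup.normalizer (Bb : Set (G ⧸ Z))))) ∈
        pCore p (↥(Subgroup.normalizer (Bb : Set (G ⧸ Z))) ⧸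
          (Subgroup.centralizer (Bb : Set (G ⧸ Z))).subgroupOf (Subgroup.normalizer (Bb : Set (G ⧸ Z)))))
    (gb : G ⧸ Z) (hgb : gb ∈ Subgroup.normalizer (Pb : Set (G ⧸ Z)))
    (hq : ⁅⁅Pb, Subgroup.zpowers gb⁆, Subgroup.zpowers gb⁆ = ⊥) :
    (QuotientGroup.mk (s := (Subgroup.centralizer (Pb : Set (G ⧸ Z))).subgroupOf (Subgroup.normalizer (Pb : Set (G ⧸ Z))))
        (⟨gb, hgb⟩ : ↥(Subgroup.normalizer (Pb : Set (G ⧸ Z))))) ∈
      pCore p (↥(Subgroup.normalizer (Pb : Set (G ⧸ Z))) ⧸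
        (Subgroup.centralizer (Pb : Set (G ⧸ Z))).subgroupOf (Subgroup.normalizer (Pb : Set (G ⧸ Z)))) := by
  classical
  obtain ⟨X, hX⟩ : ∃ X, X = Pb.comap (QuotientGroup.mk' Z) := ⟨_, rfl⟩
  have hXmem : ∀ x : G, x ∈ X ↔ (QuotientGroup.mk' Z x) ∈ Pb := fun x => by rw [hX]; rfl
  have hXmap : X.map (QuotientGroup.mk' Z) = Pb := by
    rw [hX]
    exact Subgroup.map_comap_eq_self_of_surjective (QuotientGroup.mk'_surjective Z) Pb
  have hZX : Z ≤ X := by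
    intro z hz
    rw [hXmem]
    have : QuotientGroup.mk' Z z = 1 := (QuotientGroup.eq_one_iff z).2 hz
    rw [this]
    exact Pb.one_mem
  have hXp : IsPGroup p X := by
    rintro ⟨x, hx⟩
    obtain ⟨k, hk⟩ := hPb ⟨_, (hXmem x).1 hx⟩
    have h1 : QuotientGroup.mk' Z (x ^ p ^ k) = 1 := by
      rw [map_pow]
      exact congrArg Subtype.val hk
    have h2 : x ^ p ^ k ∈ Z := (QuotientGroup.eq_one_iff _).1 h1
    obtain ⟨m, hm⟩ := hZp ⟨_, h2⟩
    refine ⟨k + m, Subtype.ext ?_⟩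
    have h3 : (x ^ p ^ k) ^ p ^ m = 1 := congrArg Subtype.val hm
    rw [pow_add, pow_mul]
    exact h3
  obtain ⟨Nb, hNb⟩ : ∃ Nb, Nb = Subgroup.normalizer (Pb : Set (G ⧸ Z)) := ⟨_, rfl⟩
  have hPN : Pb ≤ Nb := hNb ▸ Subgroup.le_normalizer
  obtain ⟨W, hW⟩ : ∃ W : Subgroup Nb, W = Pb.subgroupOf Nb := ⟨_, rfl⟩
  haveI hWn : W.Normal := by
    rw [hW]
    subst hNb
    exact Subgroup.normal_in_normalizer
  have hWp : IsPGroup p W := by
    rw [hW]
    exact hPb.comap_of_injective _ (Subgroup.subtype_injective _)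
  have hea := Cfsg.Agent.Lib.PLocal.QuadMat.ea_frattini_section W hWp
  have hcomm : ∀ x y : secA W, x * y = y * x := fun x y => hea.1.is_comm.comm x y
  have hA : ∀ v : secA W, v ^ p = 1 := fun v => Subtype.ext (hea.2 _ v.2)
  have hφm : ∀ g : LL X, QuotientGroup.mk' Z (g : G) ∈ Nb := by
    intro g
    rw [hNb, ← hXmap]
    exact Subgroup.le_normalizer_map _ ⟨g, g.2, rfl⟩
  let φ : LL X →* Nb := ((QuotientGroup.mk' Z).comp (Subgroup.subtype _)).codRestrict Nb hφm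
  have hφv : ∀ g : LL X, ((φ g : Nb) : G ⧸ Z) = ((g : G) : G ⧸ Z) := fun g => rfl
  have hφs : Function.Surjective φ := by
    rintro ⟨nb, hnb⟩
    obtain ⟨g, rfl⟩ := QuotientGroup.mk'_surjective Z nb
    have hgN : g ∈ Subgroup.normalizer (X : Set G) := by
      rw [Subgroup.mem_normalizer_iff]
      intro x
      rw [hXmem, hXmem, map_mul, map_mul, map_inv]
      rw [hNb] at hnb
      exact Subgroup.mem_normalizer_iff.1 hnb _
    exact ⟨⟨g, hgN⟩, rfl⟩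
  let ψ : X →* W :=
    { toFun := fun x => ⟨⟨QuotientGroup.mk' Z (x : G), hPN ((hXmem x).1 x.2)⟩, by
        rw [hW, Subgroup.mem_subgroupOf]
        exact (hXmem x).1 x.2⟩
      map_one' := rfl
      map_mul' := fun _ _ => rfl }
  have hψv : ∀ x : X, (((ψ x : W) : Nb) : G ⧸ Z) = ((x : G) : G ⧸ Z) := fun x => rfl
  have hψs : Function.Surjective ψ := by
    rintro ⟨⟨y, hy⟩, hw⟩
    rw [hW, Subgroup.mem_subgroupOf] at hw
    obtain ⟨x, rfl⟩ := QuotientGroup.mk'_surjective Z y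
    exact ⟨⟨x, (hXmem x).2 hw⟩, rfl⟩
  let κ : X →* secA W := ((QuotientGroup.mk' _).subgroupMap W).comp ψ
  have hκs : Function.Surjective κ := (MonoidHom.subgroupMap_surjective _ _).comp hψs
  let ρ : LL X →* MulAut (secA W) := (secρ W).comp φ
  have hρκ : ∀ ℓ x, κ (Psi X ℓ x) = ρ ℓ (κ x) := by
    intro ℓ x
    apply Subtype.ext
    show QuotientGroup.mk' _ (ψ (Psi X ℓ x) : Nb) = (QuotientGroup.mk' _ (φ ℓ)) * (QuotientGroup.mk' _ (ψ x : Nb)) * (QuotientGroup.mk' _ (φ ℓ))⁻¹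
    rw [← map_inv, ← map_mul, ← map_mul]
    congr 1
  have hκZ : Z.subgroupOf X ≤ κ.ker := by
    intro z hz
    rw [MonoidHom.mem_ker]
    have h1 : ψ z = 1 := by
      apply Subtype.ext
      apply Subtype.ext
      show QuotientGroup.mk' Z (z : G) = 1
      exact (QuotientGroup.eq_one_iff _).2 (Subgroup.mem_subgroupOf.1 hz)
    show (QuotientGroup.mk' _).subgroupMap W (ψ z) = 1
    rw [h1, map_one]
  -- the lift of the element
  obtain ⟨a, ha⟩ := hφs ⟨gb, hNb ▸ hgb⟩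
  have hagb : ((a : G) : G ⧸ Z) = gb := congrArg Subtype.val ha
  have hqa : QuadM (Psi X) (Z.subgroupOf X) ⊤ a := by
    intro x _
    rw [Subgroup.mem_subgroupOf]
    have h1 := quad_of_comm_bot hq ((hXmem x).1 x.2)
    rw [← QuotientGroup.eq_one_iff]
    have e : ((Psi X a (Psi X a x * x⁻¹) * (Psi X a x * x⁻¹)⁻¹ : X) : G) =
        (a : G) * ((a : G) * x * (a : G)⁻¹ * (x : G)⁻¹) * (a : G)⁻¹ * ((a : G) * x * (a : G)⁻¹ * (x : G)⁻¹)⁻¹ := by
      have hΨc : ∀ (g : LL X) (x : X), ((Psi X g x : X) : G) = g * x * (g : G)⁻¹ := fun g x => rfl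
      simp only [Subgroup.coe_mul, Subgroup.coe_inv, hΨc, map_mul, map_inv]
      group
    rw [e]
    show QuotientGroup.mk' Z _ = 1
    simp only [map_mul, map_inv]
    apply mul_inv_eq_one.2
    have e2 : QuotientGroup.mk' Z (a : G) = gb := hagb
    rw [e2]
    exact h1
  have hZfix : ∀ z ∈ Z.subgroupOf X, ∀ ℓ, Psi X ℓ z = z := by
    intro z hz ℓ
    apply Subtype.ext
    show (ℓ : G) * z * (ℓ : G)⁻¹ = z
    have h1 : (z : G) ∈ Subgroup.center G := hZc (Subgroup.mem_subgroupOf.1 hz)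
    rw [Subgroup.mem_center_iff.1 h1 (ℓ : G)]
    group
  have hqA : ∀ v, secρ W ⟨gb, hNb ▸ hgb⟩ (secρ W ⟨gb, hNb ▸ hgb⟩ v * v⁻¹) = secρ W ⟨gb, hNb ▸ hgb⟩ v * v⁻¹ := by
    intro v
    obtain ⟨x, rfl⟩ := hκs v
    have h1 := hκZ (hqa x (Subgroup.mem_top x))
    rw [MonoidHom.mem_ker, map_mul, map_inv, hρκ, map_mul, map_inv, hρκ] at h1
    have h2 : ρ a = secρ W ⟨gb, hNb ▸ hgb⟩ := by
      show secρ W (φ a) = _
      rw [ha]
    rw [h2] at h1
    exact mul_inv_eq_one.1 h1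
  subst hNb
  haveI hCn : ((Subgroup.centralizer (Pb : Set (G ⧸ Z))).subgroupOf (Subgroup.normalizer (Pb : Set (G ⧸ Z)))).Normal := inferInstance
  have hC : Subgroup.centralizer (W : Set (Subgroup.normalizer (Pb : Set (G ⧸ Z)))) ≤
      (Subgroup.centralizer (Pb : Set (G ⧸ Z))).subgroupOf (Subgroup.normalizer (Pb : Set (G ⧸ Z))) := by
    intro c hc
    rw [Subgroup.mem_subgroupOf, Subgroup.mem_centralizer_iff]
    intro y hy
    have hyW : (⟨y, hPN hy⟩ : Subgroup.normalizer (Pb : Set (G ⧸ Z))) ∈ W := by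
      rw [hW, Subgroup.mem_subgroupOf]
      exact hy
    exact congrArg Subtype.val (Subgroup.mem_centralizer_iff.1 hc _ hyW)
  by_cases h₀ : (secρ W).rangeRestrict ⟨gb, hgb⟩ ∈ pCore p (secρ W).range
  · exact core_of_range W hWp _ hC _ h₀
  · exfalso
    obtain ⟨h, f₁, f₂, n, hn, hf₁, h1, h2, h3, h4⟩ := exists_natural_range hcomm hp hA (secρ W) ⟨gb, hgb⟩ hqA h₀
    obtain ⟨h', hh'⟩ := hφs h
    have hρa : ρ a = secρ W ⟨gb, hgb⟩ := by
      show secρ W (φ a) = _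
      rw [ha]
    have hρb : ρ (h' * a * h'⁻¹) = secρ W (h * ⟨gb, hgb⟩ * h⁻¹) := by
      have e : φ (h' * a * h'⁻¹) = h * ⟨gb, hgb⟩ * h⁻¹ := by
        rw [map_mul, map_mul, map_inv, hh', ha]
      show secρ W (φ (h' * a * h'⁻¹)) = _
      rw [e]
    have h1' : ρ a f₁ = f₁ * f₂ := by rw [hρa]; exact h1
    have h2' : ρ a f₂ = f₂ := by rw [hρa]; exact h2
    have h3' : ρ (h' * a * h'⁻¹) f₁ = f₁ := by rw [hρb]; exact h3
    have h4' : ρ (h' * a * h'⁻¹) f₂ = f₁ ^ n * f₂ := by rw [hρb]; exact h4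
    have hIH' := hIHg
    rw [← hXmap] at hIH'
    exact step_false' hp hst Z hZc X hXp hZX hIH' hcomm hA κ hκs hκZ ρ hρκ a (h' * a * h'⁻¹) hqa
      (QuadM.conj hZfix hqa h') f₁ f₂ n hn hf₁ h1' h2' h3' h4'

/-- **`p`-stability passes to the quotient by a central `p`-subgroup**, for odd `p`. -/
theorem isNormalizerPStable_quotient_central (hp : p ≠ 2) (hst : IsNormalizerPStable p G) (Z : Subgroup G) [hZn : Z.Normal]
    (hZc : Z ≤ Subgroup.center G) (hZp : IsPGroup p Z) : IsNormalizerPStable p (G ⧸ Z) := by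
  have key : ∀ (m : ℕ) (Pb : Subgroup (G ⧸ Z)), Nat.card Pb = m → IsPGroup p Pb → ∀ (gb : G ⧸ Z)
      (hgb : gb ∈ Subgroup.normalizer (Pb : Set (G ⧸ Z))), ⁅⁅Pb, Subgroup.zpowers gb⁆, Subgroup.zpowers gb⁆ = ⊥ →
      (QuotientGroup.mk (s := (Subgroup.centralizer (Pb : Set (G ⧸ Z))).subgroupOf (Subgroup.normalizer (Pb : Set (G ⧸ Z))))
        (⟨gb, hgb⟩ : ↥(Subgroup.normalizer (Pb : Set (G ⧸ Z))))) ∈
      pCore p (↥(Subgroup.normalizer (Pb : Set (G ⧸ Z))) ⧸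
        (Subgroup.centralizer (Pb : Set (G ⧸ Z))).subgroupOf (Subgroup.normalizer (Pb : Set (G ⧸ Z)))) := by
    intro m
    induction m using Nat.strong_induction_on with
    | _ m ih =>
    intro Pb hm hPb gb hgb hq
    refine step_main hp hst Z hZc hZp Pb hPb (fun Bb hlt gb' hgb' hq' => ?_) gb hgb hq
    exact ih _ (hm ▸ Cfsg.Agent.Lib.Techniques.card_lt_of_lt' hlt) Bb rfl (hPb.to_le hlt.le) gb' hgb' hq'
  exact fun P hP g hg hq => key _ P rfl hP g hg hq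

end main

end Cfsg.Agent.Lib.PStableQ.Central
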