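import Cfsg.Agent.Lib.Core.Basic
import Cfsg.Agent.Lib.PLocal.QdSection
import Mathlib

/-! # Inverted lifts under an involutory automorphism of a finite `p`-group, `p` odd -/

set_option autoImplicit false
set_option linter.style.haveILetI false

namespace Cfsg.Agent.Lib.PStableQ.Invert

open scoped commutatorElement

variable {X : Type*} [Group X] [Finite X] {p : ℕ} [hfp : Fact p.Prime] {A : Type*} [CommGroup A]

/-- In a `p`-group with `p` odd, squares determine elements. -/
theorem eq_one_of_sq (hp : p ≠ 2) (hX : IsPGroup p X) {x : X} (h : x ^ 2 = 1) : x = 1 := by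
  obtain ⟨k, hk⟩ := hX x
  have h1 : orderOf x ∣ 2 := orderOf_dvd_of_pow_eq_one h
  have h2 : orderOf x ∣ p ^ k := orderOf_dvd_of_pow_eq_one hk
  have h3 : Nat.Coprime 2 (p ^ k) := Nat.Coprime.pow_right _ ((Nat.coprime_primes Nat.prime_two Fact.out).2 (Ne.symm hp))
  exact orderOf_eq_one_iff.1 (Nat.eq_one_of_dvd_coprimes h3 h1 h2)

theorem commute_of_sq (hp : p ≠ 2) (hX : IsPGroup p X) {x f : X} (h : x ^ 2 * f = f * x ^ 2) : x * f = f * x := by
  obtain ⟨k, hk⟩ := hX x
  -- `x` is a power of `x ^ 2`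
  have hodd : Odd (p ^ k) := ((Fact.out : p.Prime).odd_of_ne_two hp).pow
  obtain ⟨m, hm⟩ := hodd
  have e : x = (x ^ 2) ^ (m + 1) := by
    rw [← pow_mul]
    have : 2 * (m + 1) = p ^ k + 1 := by omega
    rw [this, pow_succ, hk, one_mul]
  have hc : Commute (x ^ 2) f := h
  have hc2 : Commute ((x ^ 2) ^ (m + 1)) f := hc.pow_left _
  rw [← e] at hc2
  exact hc2

section Data

variable {T : MulAut X} {Φ : Subgroup X} {κ : X →* A}

/-- Existence of inverted lifts. -/
theorem exists_inverted (hp : p ≠ 2) (hA : ∀ v : A, v ^ p = 1) (hκ : Function.Surjective κ)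
    (hT : ∀ x, κ (T x) = (κ x)⁻¹) (hT2 : ∀ x, T (T x) = x) (v : A) : ∃ x, κ x = v ∧ T x = x⁻¹ := by
  obtain ⟨m, hm⟩ := ((Fact.out : p.Prime).odd_of_ne_two hp)
  obtain ⟨x₀, hx₀⟩ := hκ (v ^ (m + 1))
  refine ⟨x₀ * (T x₀)⁻¹, ?_, ?_⟩
  · rw [map_mul, map_inv, hT, inv_inv, hx₀, ← pow_two, ← pow_mul]
    have : (m + 1) * 2 = p + 1 := by omega
    rw [this, pow_succ, hA, one_mul]
  · rw [map_mul, map_inv, hT2, mul_inv_rev, inv_inv]

/-- Inverted elements centralize the fixed normal subgroup. -/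
theorem commute_inverted (hp : p ≠ 2) (hX : IsPGroup p X) (hΦ : Φ.Normal) (hTf : ∀ f ∈ Φ, T f = f) {x f : X}
    (hx : T x = x⁻¹) (hf : f ∈ Φ) : x * f = f * x := by
  apply commute_of_sq hp hX
  have h1 : x * f * x⁻¹ ∈ Φ := hΦ.conj_mem f hf x
  have h2 := hTf _ h1
  rw [map_mul, map_mul, map_inv, hx, hTf f hf, inv_inv] at h2
  -- `x⁻¹ f x = x f x⁻¹`
  calc x ^ 2 * f = x * (x * f * x⁻¹) * x := by rw [pow_two]; group
    _ = x * (x⁻¹ * f * x) * x := by rw [h2]
    _ = f * x ^ 2 := by rw [pow_two]; group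

/-- Uniqueness of inverted lifts. -/
theorem inverted_unique (hp : p ≠ 2) (hX : IsPGroup p X) (hΦ : Φ.Normal) (hTf : ∀ f ∈ Φ, T f = f)
    (hker : ∀ x, κ x = 1 ↔ x ∈ Φ) {x y : X} (hx : T x = x⁻¹) (hy : T y = y⁻¹) (h : κ x = κ y) : x = y := by
  have hf : x⁻¹ * y ∈ Φ := (hker _).1 (by rw [map_mul, map_inv, h, inv_mul_cancel])
  have h1 := hTf _ hf
  rw [map_mul, map_inv, hx, hy, inv_inv] at h1
  have hc := commute_inverted hp hX hΦ hTf hx hf
  -- `f := x⁻¹ y` commutes with `x`
  set f := x⁻¹ * y with hfd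
  have hy' : y = x * f := by rw [hfd]; group
  have h2 : f ^ 2 = 1 := by
    have e1 : x * y⁻¹ = f⁻¹ := by
      rw [hy']
      calc x * (x * f)⁻¹ = x * (f⁻¹ * x⁻¹) := by group
        _ = x * f⁻¹ * x⁻¹ := by group
        _ = _ := by
          have : x * f⁻¹ = f⁻¹ * x := by
            have := (show Commute x f from hc).inv_right
            exact this
          rw [this]
          group
    rw [e1] at h1
    rw [pow_two]
    nth_rewrite 1 [← h1]
    group
  have := eq_one_of_sq hp hX h2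
  rw [hy', this, mul_one]

/-- Inverted elements have exponent `p`. -/
theorem pow_inverted (hp : p ≠ 2) (hX : IsPGroup p X) (hA : ∀ v : A, v ^ p = 1) (hTf : ∀ f ∈ Φ, T f = f)
    (hker : ∀ x, κ x = 1 ↔ x ∈ Φ) {x : X} (hx : T x = x⁻¹) : x ^ p = 1 := by
  have hf : x ^ p ∈ Φ := (hker _).1 (by rw [map_pow, hA])
  have h1 := hTf _ hf
  rw [map_pow, hx, inv_pow] at h1
  apply eq_one_of_sq hp hX
  rw [pow_two]
  nth_rewrite 1 [← h1]
  group

/-- The element with the right coordinates. -/
theorem lift_eq (hp : p ≠ 2) (hX : IsPGroup p X) (hA : ∀ v : A, v ^ p = 1) (hΦ : Φ.Normal) (hTf : ∀ f ∈ Φ, T f = f)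
    (hker : ∀ x, κ x = 1 ↔ x ∈ Φ) {u v w : X} (hu : T u = u⁻¹) (hv : T v = v⁻¹) (hw : T w = w⁻¹) {n : ℕ}
    (hκ : κ w = κ u * κ v ^ n) : w = u * v ^ n * ⁅u, v⁆ ^ (n * (p - 1) / 2) := by
  have hd : ⁅u, v⁆ ∈ Φ := (hker _).1 (by
    rw [commutatorElement_def, map_mul, map_mul, map_mul, map_inv, map_inv]
    simp [mul_comm])
  set d := ⁅u, v⁆ with hdd
  have hpd : d ^ p = 1 := by
    have hcu : u * d = d * u := commute_inverted hp hX hΦ hTf hu hd
    have hcv : v * d = d * v := commute_inverted hp hX hΦ hTf hv hd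
    have hs : ∀ k : ℕ, u ^ k * v * (u ^ k)⁻¹ = d ^ k * v := by
      intro k
      induction k with
      | zero => simp
      | succ k ih =>
        have e1 : u * v * u⁻¹ = d * v := by
          rw [hdd, commutatorElement_def]
          group
        have hcuk : Commute (u ^ k) d := (show Commute u d from hcu).pow_left k
        calc u ^ (k + 1) * v * (u ^ (k + 1))⁻¹ = u * (u ^ k * v * (u ^ k)⁻¹) * u⁻¹ := by
              rw [pow_succ']
              group
          _ = u * (d ^ k * v) * u⁻¹ := by rw [ih]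
          _ = d ^ k * (u * v * u⁻¹) := by
              have : Commute u (d ^ k) := (show Commute u d from hcu).pow_right k
              rw [← mul_assoc, this.eq]
              group
          _ = d ^ k * (d * v) := by rw [e1]
          _ = d ^ (k + 1) * v := by rw [pow_succ]; group
    have h1 := hs p
    rw [pow_inverted hp hX hA hTf hker hu] at h1
    simp only [one_mul, inv_one, mul_one] at h1
    exact (mul_eq_right.1 h1.symm)
  have hcv : v * d = d * v := commute_inverted hp hX hΦ hTf hv hd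
  have hcu : u * d = d * u := commute_inverted hp hX hΦ hTf hu hd
  set m := n * (p - 1) / 2 with hm
  have hm2 : n + 2 * m = n * p := by
    obtain ⟨r, hr⟩ := ((Fact.out : p.Prime).odd_of_ne_two hp)
    have e : p - 1 = 2 * r := by omega
    rw [hm, e]
    have : n * (2 * r) / 2 = n * r := by
      rw [← mul_assoc, mul_comm n 2, mul_assoc, Nat.mul_div_cancel_left _ (by norm_num)]
    rw [this, hr]
    ring
  have hinv : T (u * v ^ n * d ^ m) = (u * v ^ n * d ^ m)⁻¹ := by
    have hfix : T d = d := hTf d hd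
    rw [map_mul, map_mul, map_pow, map_pow, hu, hv, hfix, inv_pow]
    -- commutation
    have hcd : ∀ k : ℕ, Commute (v ^ k) d := fun k => (show Commute v d from hcv).pow_left k
    have huv : ∀ k : ℕ, u * v ^ k = d ^ k * (v ^ k * u) := by
      intro k
      induction k with
      | zero => simp
      | succ k ih =>
        have e1 : u * v = d * (v * u) := by
          rw [hdd, commutatorElement_def]
          group
        calc u * v ^ (k + 1) = (u * v ^ k) * v := by rw [pow_succ]; group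
          _ = d ^ k * (v ^ k * u) * v := by rw [ih]
          _ = d ^ k * v ^ k * (u * v) := by group
          _ = d ^ k * v ^ k * (d * (v * u)) := by rw [e1]
          _ = d ^ k * (v ^ k * d) * (v * u) := by group
          _ = d ^ k * (d * v ^ k) * (v * u) := by rw [(hcd k).eq]
          _ = _ := by rw [pow_succ, pow_succ]; group
    set w := v ^ n with hwd
    set y := d ^ m with hyd
    set z := d ^ n with hzd
    have hzz : z * y * y = 1 := by
      rw [hzd, hyd, ← pow_add, ← pow_add]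
      have : n + m + m = n * p := by omega
      rw [this, mul_comm, pow_mul, hpd, one_pow]
    have e_z : u * w * u⁻¹ * w⁻¹ = z := by
      have h : u * w = z * (w * u) := huv n
      rw [h]
      group
    have hyu : y * u⁻¹ = u⁻¹ * y := by
      have : Commute u d := hcu
      exact (this.pow_right m).inv_left.symm.eq
    have hyw : y * w⁻¹ = w⁻¹ * y := by
      have : Commute (v ^ n) (d ^ m) := (hcd n).pow_right m
      exact this.inv_left.symm.eq
    apply eq_inv_of_mul_eq_one_right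
    calc u * w * y * (u⁻¹ * w⁻¹ * y) = u * w * (y * u⁻¹) * w⁻¹ * y := by group
      _ = u * w * u⁻¹ * (y * w⁻¹) * y := by rw [hyu]; group
      _ = u * w * u⁻¹ * w⁻¹ * y * y := by rw [hyw]; group
      _ = 1 := by rw [e_z, hzz]
  exact inverted_unique hp hX hΦ hTf hker hw hinv (by
    rw [hκ, map_mul, map_mul, map_pow, map_pow]
    have : κ d = 1 := (hker d).2 hd
    rw [this, one_pow, mul_one])

/-- The facts about a transvection on the pair of inverted elements. -/
theorem pair_facts (hp : p ≠ 2) (hX : IsPGroup p X) (hA : ∀ v : A, v ^ p = 1) (hΦ : Φ.Normal) (hTf : ∀ f ∈ Φ, T f = f)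
    (hker : ∀ x, κ x = 1 ↔ x ∈ Φ) {u v : X} (hu : T u = u⁻¹) (hv : T v = v⁻¹) {χ : MulAut X}
    (hχT : ∀ x, χ (T x) = T (χ x)) (hχv : χ v = v) {n : ℕ} (hκ : κ (χ u) = κ u * κ v ^ n) :
    (∀ x ∈ Subgroup.closure ({u, v} : Set X), χ x ∈ Subgroup.closure ({u, v} : Set X)) ∧
    (∀ x ∈ Subgroup.closure ({u, v} : Set X), x⁻¹ * χ x ∈ Subgroup.closure ({v, ⁅u, v⁆} : Set X)) ∧
    (∀ x ∈ Subgroup.closure ({v, ⁅u, v⁆} : Set X), χ x = x) ∧
    (∀ x ∈ Subgroup.closure ({u, v} : Set X), ∀ f ∈ Subgroup.closure ({v, ⁅u, v⁆} : Set X),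
      x * f * x⁻¹ ∈ Subgroup.closure ({v, ⁅u, v⁆} : Set X)) := by
  have hd : ⁅u, v⁆ ∈ Φ := (hker _).1 (by
    rw [commutatorElement_def, map_mul, map_mul, map_mul, map_inv, map_inv]
    simp [mul_comm])
  set d := ⁅u, v⁆ with hdd
  have hcu : Commute u d := commute_inverted hp hX hΦ hTf hu hd
  have hcv : Commute v d := commute_inverted hp hX hΦ hTf hv hd
  have hχu : χ u = u * v ^ n * d ^ (n * (p - 1) / 2) := by
    have hw : T (χ u) = (χ u)⁻¹ := by
      rw [← hχT, hu, map_inv]
    exact lift_eq hp hX hA hΦ hTf hker hu hv hw hκ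
  have hχd : χ d = d := by
    rw [hdd, commutatorElement_def, map_mul, map_mul, map_mul, map_inv, map_inv, hχv, hχu]
    set y := d ^ (n * (p - 1) / 2) with hy
    have h1 : Commute v y := hcv.pow_right _
    have h2 : Commute v (v ^ n) := (Commute.refl v).pow_right n
    have h3 : Commute v (v ^ n * y) := h2.mul_right h1
    calc u * v ^ n * y * v * (u * v ^ n * y)⁻¹ * v⁻¹ = u * (v ^ n * y * v) * (v ^ n * y)⁻¹ * u⁻¹ * v⁻¹ := by group
      _ = u * (v * (v ^ n * y)) * (v ^ n * y)⁻¹ * u⁻¹ * v⁻¹ := by rw [h3.eq]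
      _ = u * v * u⁻¹ * v⁻¹ := by group
      _ = d := by rw [hdd, commutatorElement_def]
  set Ξ := Subgroup.closure ({u, v} : Set X) with hΞ
  set D := Subgroup.closure ({v, d} : Set X) with hD
  have huΞ : u ∈ Ξ := Subgroup.subset_closure (by simp)
  have hvΞ : v ∈ Ξ := Subgroup.subset_closure (by simp)
  have hdΞ : d ∈ Ξ := by
    rw [hdd, commutatorElement_def]
    exact Ξ.mul_mem (Ξ.mul_mem (Ξ.mul_mem huΞ hvΞ) (Ξ.inv_mem huΞ)) (Ξ.inv_mem hvΞ)
  have hvD : v ∈ D := Subgroup.subset_closure (by simp)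
  have hdD : d ∈ D := Subgroup.subset_closure (by simp)
  have hDfix : ∀ x ∈ D, χ x = x := by
    intro x hx
    induction hx using Subgroup.closure_induction with
    | mem x hx =>
      rcases hx with rfl | hx
      · exact hχv
      · rw [Set.mem_singleton_iff.1 hx]
        exact hχd
    | one => simp
    | mul a b _ _ ha hb => rw [map_mul, ha, hb]
    | inv a _ ha => rw [map_inv, ha]
  have hχuΞ : χ u ∈ Ξ := by
    rw [hχu]
    exact Ξ.mul_mem (Ξ.mul_mem huΞ (pow_mem hvΞ _)) (pow_mem hdΞ _)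
  have hstep : u⁻¹ * χ u ∈ D := by
    rw [hχu]
    have e : u⁻¹ * (u * v ^ n * d ^ (n * (p - 1) / 2)) = v ^ n * d ^ (n * (p - 1) / 2) := by group
    rw [e]
    exact D.mul_mem (pow_mem hvD _) (pow_mem hdD _)
  -- conjugation by the generators
  have e_uv : u * v * u⁻¹ = d * v := by
    rw [hdd, commutatorElement_def]
    group
  have hconjD : ∀ {c : X}, (c * v * c⁻¹ ∈ D) → (c * d * c⁻¹ ∈ D) → c ∈ Subgroup.normalizer (D : Set X) := by
    intro c h1 h2
    apply Cfsg.Agent.Lib.PLocal.Qd.mem_normalizer_of_conj_le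
    intro f hf
    induction hf using Subgroup.closure_induction with
    | mem f hf =>
      rcases hf with rfl | hf
      · exact h1
      · rw [Set.mem_singleton_iff.1 hf]
        exact h2
    | one => simp
    | mul a b _ _ ha hb =>
      have e : c * (a * b) * c⁻¹ = (c * a * c⁻¹) * (c * b * c⁻¹) := by group
      rw [e]
      exact D.mul_mem ha hb
    | inv a _ ha =>
      have e : c * a⁻¹ * c⁻¹ = (c * a * c⁻¹)⁻¹ := by group
      rw [e]
      exact D.inv_mem ha
  have huN : u ∈ Subgroup.normalizer (D : Set X) := hconjD (by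
      rw [e_uv]
      exact D.mul_mem hdD hvD) (by
      rw [hcu.eq]
      simpa using hdD)
  have hvN : v ∈ Subgroup.normalizer (D : Set X) := hconjD (by simpa using hvD) (by
      rw [hcv.eq]
      simpa using hdD)
  have hΞN : Ξ ≤ Subgroup.normalizer (D : Set X) := by
    rw [hΞ, Subgroup.closure_le]
    rintro x (rfl | hx)
    · exact huN
    · rw [Set.mem_singleton_iff.1 hx]
      exact hvN
  have hnorm : ∀ x ∈ Ξ, ∀ f ∈ D, x * f * x⁻¹ ∈ D := fun x hx f hf =>
    (Subgroup.mem_normalizer_iff.1 (hΞN hx) f).1 hf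
  refine ⟨?_, ?_, hDfix, hnorm⟩
  · intro x hx
    induction hx using Subgroup.closure_induction with
    | mem x hx =>
      rcases hx with rfl | hx
      · exact hχuΞ
      · rw [Set.mem_singleton_iff.1 hx, hχv]
        exact hvΞ
    | one => simp
    | mul a b _ _ ha hb =>
      rw [map_mul]
      exact Ξ.mul_mem ha hb
    | inv a _ ha =>
      rw [map_inv]
      exact Ξ.inv_mem ha
  · intro x hx
    induction hx using Subgroup.closure_induction with
    | mem x hx =>
      rcases hx with rfl | hx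
      · exact hstep
      · rw [Set.mem_singleton_iff.1 hx, hχv, inv_mul_cancel]
        exact D.one_mem
    | one => simp
    | mul a b ha' hb' ha hb =>
      have e : (a * b)⁻¹ * χ (a * b) = b⁻¹ * (a⁻¹ * χ a) * b⁻¹⁻¹ * (b⁻¹ * χ b) := by
        rw [map_mul]
        group
      rw [e]
      exact D.mul_mem (hnorm _ (Ξ.inv_mem hb') _ ha) hb
    | inv a ha' ha =>
      have e : (a⁻¹)⁻¹ * χ a⁻¹ = a * (a⁻¹ * χ a)⁻¹ * a⁻¹ := by
        rw [map_inv]
        group
      rw [e]
      exact hnorm _ ha' _ (D.inv_mem ha)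

end Data

end Cfsg.Agent.Lib.PStableQ.Invert
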